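import Mathlib
import Cfsg.Prelude.Def_Involutions
import Cfsg.Agent.H12.PGroupFix

/-!
# Transitive groups of prime power degree with odd centralizers of `p`-elements (helper78)
-/

set_option autoImplicit false

namespace Cfsg.Agent.PDZ

open Cfsg MulAction

universe u v

variable {G : Type u} {Ω : Type v} [Group G] [Finite G] [MulAction G Ω]

theorem regular [FaithfulSMul G Ω] [IsPretransitive G Ω] {p r : ℕ} [Fact p.Prime] (hΩ : Nat.card Ω = p ^ r)
    (P : Sylow p G) (hab : IsMulCommutative (P : Subgroup G)) {x : G} (hx : x ∈ P) {a : Ω} (h : x • a = a) :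
    x = 1 := by
  have hP := H12.sylow_isPretransitive hΩ P
  apply FaithfulSMul.eq_of_smul_eq_smul (α := Ω)
  intro b
  obtain ⟨y, hy⟩ := exists_smul_eq (P : Subgroup G) a b
  have hy' : (y : G) • a = b := hy
  have hcomm : x * (y : G) = y * x := by
    have := hab.is_comm.comm (⟨x, hx⟩ : (P : Subgroup G)) y
    exact congrArg Subtype.val this
  rw [one_smul, ← hy', smul_smul, hcomm, mul_smul, h]

theorem inverts {p : ℕ} [hp : Fact p.Prime] (P : Sylow p G) (hab : IsMulCommutative (P : Subgroup G))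
    (hC : ∀ g : G, g ≠ 1 → (∃ k : ℕ, orderOf g = p ^ k) →
      Odd (Nat.card ↥(Subgroup.centralizer ({g} : Set G)))) {t : G} (ht : orderOf t = 2)
    (htN : t ∈ Subgroup.normalizer ((P : Subgroup G) : Set G)) {x : G} (hx : x ∈ P) : t * x * t⁻¹ = x⁻¹ := by
  have htt : t * t = 1 := by rw [← pow_two, ← ht, pow_orderOf_eq_one]
  have hxt : t * x * t⁻¹ ∈ P := (Subgroup.mem_normalizer_iff.mp htN x).mp hx
  have hcomm : x * (t * x * t⁻¹) = (t * x * t⁻¹) * x := by
    have := hab.is_comm.comm (⟨x, hx⟩ : (P : Subgroup G)) ⟨t * x * t⁻¹, hxt⟩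
    exact congrArg Subtype.val this
  by_contra hne
  have hy1 : x * (t * x * t⁻¹) ≠ 1 := by
    intro h
    exact hne (eq_inv_of_mul_eq_one_right h)
  have hyP : x * (t * x * t⁻¹) ∈ P := mul_mem hx hxt
  obtain ⟨k, hk⟩ := (IsPGroup.iff_orderOf.mp P.isPGroup') ⟨_, hyP⟩
  rw [Subgroup.orderOf_mk] at hk
  have h1 := hC _ hy1 ⟨k, hk⟩
  have ht' : t⁻¹ = t := inv_eq_of_mul_eq_one_left htt
  have h2 : t ∈ Subgroup.centralizer ({x * (t * x * t⁻¹)} : Set G) := by
    rw [Subgroup.mem_centralizer_singleton_iff]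
    have h3 : t * (x * (t * x * t⁻¹)) = (t * x * t⁻¹) * x * t := by
      rw [ht']
      calc t * (x * (t * x * t)) = t * x * t * x * t := by group
        _ = _ := by group
    rw [h3, ← hcomm]
  have h3 : 2 ∣ Nat.card ↥(Subgroup.centralizer ({x * (t * x * t⁻¹)} : Set G)) := by
    have h4 : orderOf (⟨t, h2⟩ : ↥(Subgroup.centralizer ({x * (t * x * t⁻¹)} : Set G))) = 2 := by
      rw [Subgroup.orderOf_mk, ht]
    rw [← h4]
    exact orderOf_dvd_natCard _
  exact (Nat.not_even_iff_odd.mpr h1) (even_iff_two_dvd.mpr h3)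

theorem unique_fix [FaithfulSMul G Ω] [IsPretransitive G Ω] {p r : ℕ} [hp : Fact p.Prime] (hp2 : p ≠ 2)
    (hΩ : Nat.card Ω = p ^ r) (hC : ∀ g : G, g ≠ 1 → (∃ k : ℕ, orderOf g = p ^ k) →
      Odd (Nat.card ↥(Subgroup.centralizer ({g} : Set G)))) (P : Sylow p G)
    (hab : IsMulCommutative (P : Subgroup G)) {t : G} (ht : orderOf t = 2)
    (htN : t ∈ Subgroup.normalizer ((P : Subgroup G) : Set G)) :
    ∃ a : Ω, t • a = a ∧ ∀ b : Ω, t • b = b → b = a := by
  have hP := H12.sylow_isPretransitive hΩ P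
  have hne : Nonempty Ω := by
    rw [← not_isEmpty_iff]
    intro h
    rw [Nat.card_of_isEmpty] at hΩ
    exact (pow_pos hp.out.pos r).ne hΩ
  obtain ⟨w⟩ := hne
  have hodd : ∀ y ∈ P, Odd (orderOf y) := by
    intro y hy
    obtain ⟨k, hk⟩ := (IsPGroup.iff_orderOf.mp P.isPGroup') ⟨_, hy⟩
    rw [Subgroup.orderOf_mk] at hk
    rw [hk]
    exact (hp.out.odd_of_ne_two hp2).pow
  have htinv : ∀ y ∈ P, t * y = y⁻¹ * t := by
    intro y hy
    rw [← inverts P hab hC ht htN hy]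
    group
  obtain ⟨y, hy⟩ := exists_smul_eq (P : Subgroup G) w (t • w)
  have hy' : (y : G) • w = t • w := hy
  obtain ⟨k, hk⟩ := hodd y y.2
  have hz2 : ((y : G) ^ (k + 1)) * ((y : G) ^ (k + 1)) = y := by
    rw [← pow_add, show k + 1 + (k + 1) = (2 * k + 1) + 1 by ring, pow_succ, ← hk, pow_orderOf_eq_one, one_mul]
  have hzP : (y : G) ^ (k + 1) ∈ P := pow_mem y.2 _
  set z := (y : G) ^ (k + 1) with hz
  have hfix : t • (z • w) = z • w := by
    rw [smul_smul, htinv z hzP, mul_smul, ← hy', ← hz2, smul_smul, inv_mul_cancel_left]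
  refine ⟨z • w, hfix, ?_⟩
  intro b hb
  obtain ⟨x, hx⟩ := exists_smul_eq (P : Subgroup G) (z • w) b
  have hx' : (x : G) • (z • w) = b := hx
  have h1 : ((x : G) * x) • (z • w) = z • w := by
    have h2 : t • ((x : G) • (z • w)) = (x : G) • (z • w) := by rw [hx']; exact hb
    rw [smul_smul, htinv x x.2, mul_smul, hfix] at h2
    rw [mul_smul, ← h2, smul_smul, mul_inv_cancel, one_smul]
  have h2 := regular hΩ P hab (mul_mem x.2 x.2) h1
  have h3 : (x : G) = 1 := by
    obtain ⟨m, hm⟩ := hodd x x.2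
    have h4 : (x : G) ^ 2 = 1 := by rw [pow_two]; exact h2
    have h5 := orderOf_dvd_of_pow_eq_one h4
    rcases (Nat.dvd_prime Nat.prime_two).mp h5 with h6 | h6
    · exact orderOf_eq_one_iff.mp h6
    · omega
  rw [← hx', h3, one_smul]

theorem strongly [FaithfulSMul G Ω] [IsPretransitive G Ω] {p r : ℕ} [hp : Fact p.Prime] (hp2 : p ≠ 2)
    (hr : 1 ≤ r) (hΩ : Nat.card Ω = p ^ r) (hC : ∀ g : G, g ≠ 1 → (∃ k : ℕ, orderOf g = p ^ k) →
      Odd (Nat.card ↥(Subgroup.centralizer ({g} : Set G))))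
    (hab : ∀ P : Sylow p G, IsMulCommutative (P : Subgroup G))
    (hev : ∀ P : Sylow p G, Even (Nat.card ↥(Subgroup.normalizer ((P : Subgroup G) : Set G))))
    (hconj : ∀ s t : G, orderOf s = 2 → orderOf t = 2 → IsConj s t) :
    ∃ a : Ω, IsStronglyEmbedded (stabilizer G a) ∧ (stabilizer G a).index = p ^ r ∧
      ¬ p ∣ Nat.card (stabilizer G a) := by
  have := Fact.mk Nat.prime_two
  let P : Sylow p G := default
  obtain ⟨t', ht'⟩ := exists_prime_orderOf_dvd_card' 2 (even_iff_two_dvd.mp (hev P))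
  obtain ⟨t, htN⟩ := t'
  rw [Subgroup.orderOf_mk] at ht'
  obtain ⟨a, hta, huniq⟩ := unique_fix (Ω := Ω) hp2 hΩ hC P (hab P) ht' htN
  have hall : ∀ s : G, orderOf s = 2 → ∀ b c : Ω, s • b = b → s • c = c → b = c := by
    intro s hs b c hb hc
    obtain ⟨g, hg⟩ := isConj_iff.mp (hconj t s ht' hs)
    have h1 : ∀ d : Ω, s • d = d → g⁻¹ • d = a := by
      intro d hd
      apply huniq
      rw [← hg] at hd
      rw [smul_smul]
      calc (t * g⁻¹) • d = g⁻¹ • ((g * t * g⁻¹) • d) := by rw [smul_smul]; congr 1; group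
        _ = g⁻¹ • d := by rw [hd]
    have h2 := (h1 b hb).trans (h1 c hc).symm
    exact MulAction.injective g⁻¹ h2
  have hidx : (stabilizer G a).index = p ^ r := by
    rw [index_stabilizer_of_transitive, hΩ]
  refine ⟨a, ⟨?_, ?_, ?_⟩, hidx, ?_⟩
  · intro htop
    rw [htop, Subgroup.index_top] at hidx
    exact (Nat.one_lt_pow (by omega) hp.out.one_lt).ne hidx
  · have hts : t ∈ stabilizer G a := hta
    have h4 : orderOf (⟨t, hts⟩ : stabilizer G a) = 2 := by rw [Subgroup.orderOf_mk, ht']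
    rw [even_iff_two_dvd, ← h4]
    exact orderOf_dvd_natCard _
  · intro g hg
    rw [← Nat.not_even_iff_odd, even_iff_two_dvd]
    intro h2
    obtain ⟨s', hs'⟩ := exists_prime_orderOf_dvd_card' 2 h2
    obtain ⟨s, hs12⟩ := s'
    rw [Subgroup.orderOf_mk] at hs'
    obtain ⟨hs1, hs2⟩ := Subgroup.mem_inf.mp hs12
    obtain ⟨h, hh, hhs⟩ := hs2
    have e1 : s • a = a := hs1
    have e2 : s • (g • a) = g • a := by
      have e3 : s = g * h * g⁻¹ := hhs.symm
      have e4 : h • a = a := hh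
      rw [e3, smul_smul, inv_mul_cancel_right, mul_smul, e4]
    exact hg (hall s hs' _ _ e2 e1)
  · intro hdvd
    obtain ⟨x', hx'⟩ := exists_prime_orderOf_dvd_card' p hdvd
    obtain ⟨x, hxs⟩ := x'
    rw [Subgroup.orderOf_mk] at hx'
    have hpg : IsPGroup p (Subgroup.zpowers x) := IsPGroup.of_card (n := 1) (by rw [Nat.card_zpowers, hx', pow_one])
    obtain ⟨Q, hQ⟩ := hpg.exists_le_sylow
    have h1 := regular hΩ Q (hab Q) (hQ (Subgroup.mem_zpowers x)) hxs
    rw [h1, orderOf_one] at hx'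
    exact hp.out.one_lt.ne hx'

end Cfsg.Agent.PDZ
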