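import Mathlib
import Cfsg.Prelude.Def_Exceptional
import Cfsg.Prelude.Def_LieTypes
import Cfsg.Agent.H4.CardSL
import Cfsg.Agent.S0243
import Cfsg.Agent.S0280

/-!
# Arithmetic: `q^2+1`, `q^3+1` are not odd prime powers; 2-parts (helper78)
-/

set_option autoImplicit false

namespace Cfsg.Agent.PDZ

theorem prime_dvd_of_mul_eq_pow {p r a b : ℕ} (hp : p.Prime) (h : a * b = p ^ r) (ha : 1 < a) : p ∣ a := by
  have h1 : a ∣ p ^ r := ⟨b, h.symm⟩
  obtain ⟨k, -, rfl⟩ := (Nat.dvd_prime_pow hp).mp h1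
  rcases Nat.eq_zero_or_pos k with h0 | h0
  · rw [h0] at ha; simp at ha
  · exact dvd_pow_self p h0.ne'

theorem suz_false {p r m : ℕ} (hp : p.Prime) (hp2 : p ≠ 2) (hm : 1 ≤ m)
    (h : p ^ r = (2 ^ (2 * m + 1)) ^ 2 + 1) : False := by
  set s := 2 ^ m with hs
  have hs2 : 2 ≤ s := by
    calc 2 = 2 ^ 1 := rfl
      _ ≤ s := Nat.pow_le_pow_right (by norm_num) hm
  have hq : 2 ^ (2 * m + 1) = 2 * s ^ 2 := by
    rw [hs]
    ring
  obtain ⟨t, ht⟩ : ∃ t, s = t + 1 := ⟨s - 1, by omega⟩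
  have h1 : (2 * s ^ 2 + 2 * s + 1) * (2 * t ^ 2 + 2 * t + 1) = p ^ r := by
    rw [h, hq, ht]; ring
  have ht1 : 1 ≤ t := by omega
  have h2 := prime_dvd_of_mul_eq_pow hp h1 (by nlinarith)
  have h3 := prime_dvd_of_mul_eq_pow hp (by rw [mul_comm]; exact h1) (a := 2 * t ^ 2 + 2 * t + 1)
    (b := 2 * s ^ 2 + 2 * s + 1) (by nlinarith)
  have h4 : 2 * s ^ 2 + 2 * s + 1 = (2 * t ^ 2 + 2 * t + 1) + 2 ^ 2 * s := by rw [ht]; ring
  rw [h4] at h2
  have h5 := (Nat.dvd_add_right h3).mp h2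
  rw [hs, ← pow_add] at h5
  exact hp2 ((Nat.prime_dvd_prime_iff_eq hp Nat.prime_two).mp (hp.dvd_of_dvd_pow h5))

theorem psu_false {p r q : ℕ} (hp : p.Prime) (hq : 4 ≤ q) (h : p ^ r = q ^ 3 + 1) : False := by
  obtain ⟨t, ht⟩ : ∃ t, q = t + 1 := ⟨q - 1, by omega⟩
  have h1 : (q + 1) * (t * q + 1) = p ^ r := by
    rw [h, ht]; ring
  have ht3 : 3 ≤ t := by omega
  have h2 := prime_dvd_of_mul_eq_pow hp h1 (by omega)
  have h3 := prime_dvd_of_mul_eq_pow hp (by rw [mul_comm]; exact h1) (a := t * q + 1) (b := q + 1) (by nlinarith)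
  have h4 : (q + 1) ^ 2 = (t * q + 1) + 3 * q := by rw [ht]; ring
  have h5 : p ∣ 3 * q := by
    have : p ∣ (t * q + 1) + 3 * q := h4 ▸ (dvd_pow h2 two_ne_zero)
    exact (Nat.dvd_add_right h3).mp this
  have h6 : ¬ p ∣ q := by
    intro h7
    exact hp.one_lt.ne' (Nat.dvd_one.mp ((Nat.dvd_add_right h7).mp h2))
  have h7 : p = 3 := by
    rcases hp.dvd_mul.mp h5 with h8 | h8
    · exact (Nat.prime_dvd_prime_iff_eq hp Nat.prime_three).mp h8
    · exact absurd h8 h6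
  subst h7
  have h8 : ∀ a b : ℕ, a * b = 3 ^ r → 3 < a → 9 ∣ a := by
    intro a b hab ha
    obtain ⟨k, -, rfl⟩ := (Nat.dvd_prime_pow Nat.prime_three).mp (⟨b, hab.symm⟩ : a ∣ 3 ^ r)
    have hk : 2 ≤ k := by
      by_contra hlt
      interval_cases k <;> simp at ha
    exact pow_dvd_pow 3 hk
  have h9 := h8 _ _ h1 (by omega)
  have h10 := h8 (t * q + 1) (q + 1) (by rw [mul_comm]; exact h1) (by nlinarith)
  have h11 : 9 ∣ 3 * q := by
    have : 9 ∣ (t * q + 1) + 3 * q := h4 ▸ (dvd_pow h9 two_ne_zero)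
    exact (Nat.dvd_add_right h10).mp this
  apply h6
  omega

theorem card_psl2 {F : Type} [Field F] [Fintype F] {n : ℕ} (hn : 1 ≤ n) (hF : Fintype.card F = 2 ^ n) :
    ∃ M, Odd M ∧ Nat.card (Matrix.ProjectiveSpecialLinearGroup (Fin 2) F) = 2 ^ n * M := by
  set q := 2 ^ n with hq
  have hq2 : 2 ≤ q := by
    calc 2 = 2 ^ 1 := rfl
      _ ≤ q := Nat.pow_le_pow_right (by norm_num) hn
  have he : Even q := Nat.even_pow.2 ⟨even_two, by omega⟩
  have h1 := Cfsg.Agent.S0243.result (F := F) hF 2 le_rfl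
  have hg : Nat.gcd 2 (q - 1) = 1 := by
    apply Nat.Coprime.gcd_eq_one
    apply Nat.coprime_two_left.2
    obtain ⟨k, hk⟩ := he
    exact ⟨k - 1, by omega⟩
  rw [hg, one_mul, Fin.prod_univ_two] at h1
  simp only [Fin.val_zero, pow_zero, Fin.val_one, pow_one] at h1
  obtain ⟨r, hr⟩ : ∃ r, q = r + 1 := ⟨q - 1, by omega⟩
  have hr1 : 0 < r := by omega
  have h2 : Nat.card (Matrix.ProjectiveSpecialLinearGroup (Fin 2) F) = q * (r * (q + 1)) := by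
    have h3 : q ^ 2 - 1 = r * (q + 1) := by
      rw [hr]
      have : (r + 1) ^ 2 = r * (r + 1 + 1) + 1 := by ring
      omega
    have h4 : q ^ 2 - q = r * q := by
      rw [hr]
      have : (r + 1) ^ 2 = r * (r + 1) + (r + 1) := by ring
      omega
    have h5 : q - 1 = r := by omega
    rw [h3, h4, h5] at h1
    apply Nat.eq_of_mul_eq_mul_left hr1
    rw [h1]; ring
  refine ⟨r * (q + 1), ?_, h2⟩
  obtain ⟨k, hk⟩ := he
  rw [Nat.odd_mul]
  exact ⟨⟨k - 1, by omega⟩, ⟨k, by omega⟩⟩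

theorem card_suz {K : Type*} [Group K] {m : ℕ}
    (hc : Nat.card K = (2 ^ (2 * m + 1)) ^ 2 * ((2 ^ (2 * m + 1)) ^ 2 + 1) * (2 ^ (2 * m + 1) - 1)) :
    ∃ M, Odd M ∧ Nat.card K = (2 ^ (2 * m + 1)) ^ 2 * M := by
  refine ⟨((2 ^ (2 * m + 1)) ^ 2 + 1) * (2 ^ (2 * m + 1) - 1), ?_, by rw [hc, mul_assoc]⟩
  have he : Even (2 ^ (2 * m + 1)) := Nat.even_pow.2 ⟨even_two, by omega⟩
  rw [Nat.odd_mul]
  have h1 : 0 < 2 ^ (2 * m + 1) := by positivity
  exact ⟨(Nat.even_pow.2 ⟨he, two_ne_zero⟩).add_one, Nat.Even.sub_odd h1 he odd_one⟩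

theorem card_psu3 {F : Type} [Field F] [Fintype F] {n : ℕ} (hn : 1 ≤ n) (hF : Fintype.card F = (2 ^ n) ^ 2) :
    ∃ M, Odd M ∧ Nat.card (Cfsg.PSU 3 F (2 ^ n)) = (2 ^ n) ^ 3 * M := by
  set q := 2 ^ n with hq
  have hq2 : 2 ≤ q := by
    calc 2 = 2 ^ 1 := rfl
      _ ≤ q := Nat.pow_le_pow_right (by norm_num) hn
  have he : Even q := Nat.even_pow.2 ⟨even_two, by omega⟩
  have h1 := Cfsg.Agent.S0280.result (F := F) hF 3 (by norm_num)
  simp only [Finset.prod_range_succ, Finset.prod_range_zero, one_mul] at h1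
  norm_num at h1
  obtain ⟨r, hr⟩ : ∃ r, q ^ 2 = r + 1 := ⟨q ^ 2 - 1, by
    have : 1 ≤ q ^ 2 := Nat.one_le_pow _ _ (by omega)
    omega⟩
  have hr5 : q ^ 2 - 1 = r := by omega
  have hr0 : 0 < r := by nlinarith
  set d := Nat.gcd 3 (q + 1) with hd
  have hdodd : Odd d := by
    have : d ∣ 3 := Nat.gcd_dvd_left _ _
    rcases (Nat.dvd_prime Nat.prime_three).1 this with h | h
    · rw [h]; decide
    · rw [h]; decide
  set N := Nat.card (Cfsg.PSU 3 F q) with hN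
  have h2 : d * N = q ^ 3 * (r * (q ^ 3 + 1)) := by
    have hq1 : 0 < q + 1 := by omega
    apply Nat.eq_of_mul_eq_mul_left hq1
    rw [hr5] at h1
    calc (q + 1) * (d * N) = d * ((q + 1) * N) := by ring
      _ = _ := by
        rw [h1]; ring
  have hs : ∃ k, q ^ 3 = 2 ^ k := ⟨n * 3, by rw [hq, ← pow_mul]⟩
  have hcop : Nat.Coprime (q ^ 3) d := by
    obtain ⟨k, hk⟩ := hs
    rw [hk]
    exact Nat.Coprime.pow_left k (Nat.coprime_two_left.2 hdodd)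
  obtain ⟨M, hM⟩ : q ^ 3 ∣ N := hcop.dvd_of_dvd_mul_left ⟨_, h2⟩
  have h3 : d * M = r * (q ^ 3 + 1) := by
    have hpos : 0 < q ^ 3 := by positivity
    apply Nat.eq_of_mul_eq_mul_left hpos
    rw [← h2, hM]; ring
  refine ⟨M, ?_, hM⟩
  have h4 : Odd (r * (q ^ 3 + 1)) := by
    rw [Nat.odd_mul]
    refine ⟨?_, (Nat.even_pow.2 ⟨he, by norm_num⟩).add_one⟩
    have h5 : Even (q ^ 2) := Nat.even_pow.2 ⟨he, two_ne_zero⟩
    rw [hr] at h5
    exact (Nat.even_add_one.1 h5 |> Nat.not_even_iff_odd.1)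
  rw [← h3] at h4
  exact (Nat.odd_mul.1 h4).2

end Cfsg.Agent.PDZ
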