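import Mathlib
import Cfsg.Prelude.Def_PLocal
import Cfsg.Agent.ZJ.SolvFact

/-!
# Extension of a solvable group by a `p'`-group is `p`-solvable (helper78)
-/

set_option autoImplicit false

namespace Cfsg.Agent.PDZ

open Cfsg Subgroup

theorem isPSolvable_of_solvable_normal {G : Type*} [Group G] [Finite G] (p : ℕ) [hp : Fact p.Prime]
    (S : Subgroup G) [hSn : S.Normal] (hS : Group.IsSolvable S) (hidx : (S.index).Coprime p) : IsPSolvable p G := by
  have hfin : ({N : Subgroup G | N.Normal ∧ N ≤ S ∧ H69.PChain p N}).Finite := Set.toFinite _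
  obtain ⟨N, ⟨hN, hNS, hNc⟩, hmax⟩ := hfin.exists_maximalFor (fun N : Subgroup G => Nat.card N) _
    ⟨⊥, inferInstance, bot_le, H69.PChain.bot p⟩
  by_cases htop : N = S
  · subst htop
    have h1 : H69.PChain p (⊤ : Subgroup G) := by
      refine hNc.step le_top inferInstance (Or.inr ?_)
      rwa [relIndex_top_right]
    exact h1.isPSolvable
  exfalso
  have hs : Function.Surjective (QuotientGroup.mk' N) := QuotientGroup.mk'_surjective N
  have hqn : S.map (QuotientGroup.mk' N) ≠ ⊥ := by
    intro h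
    rw [Subgroup.map_eq_bot_iff, QuotientGroup.ker_mk'] at h
    exact htop (le_antisymm hNS h)
  have hSm : (S.map (QuotientGroup.mk' N)).Normal := Subgroup.Normal.map hSn _ hs
  obtain ⟨K, hKn, hKS, hK1, hmin⟩ := Solv.exists_minimal_normal (S.map (QuotientGroup.mk' N)) hSm hqn
  have hSs : Group.IsSolvable ↥(S.map (QuotientGroup.mk' N)) := by
    exact Group.isSolvable_of_surjective ((QuotientGroup.mk' N).subgroupMap_surjective S)
  have hKs : Group.IsSolvable K :=
    Group.isSolvable_of_isSolvable_injective (Subgroup.inclusion_injective hKS)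
  obtain ⟨q, hq, hKq⟩ := Solv.minimal_normal_isPGroup K hKs hK1 hmin
  have hqf : Fact q.Prime := ⟨hq⟩
  set K' := K.comap (QuotientGroup.mk' N) with hK'
  have hNK' : N ≤ K' := by
    intro x hx
    change QuotientGroup.mk' N x ∈ K
    have : QuotientGroup.mk' N x = 1 := (QuotientGroup.eq_one_iff x).mpr hx
    rw [this]; exact one_mem _
  have hK'S : K' ≤ S := by
    intro x hx
    obtain ⟨s, hs1, hs2⟩ := hKS hx
    have h3 : s⁻¹ * x ∈ N := QuotientGroup.eq.1 hs2
    have := mul_mem hs1 (hNS h3)
    rwa [mul_inv_cancel_left] at this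
  have hmap : K'.map (QuotientGroup.mk' N) = K :=
    Subgroup.map_comap_eq_self_of_surjective (QuotientGroup.mk'_surjective N) K
  have hrel : N.relIndex K' = Nat.card K := by
    rw [← Subgroup.relIndex_bot_left K, ← hmap]
    have : (⊥ : Subgroup (G ⧸ N)) = N.map (QuotientGroup.mk' N) := by
      rw [eq_comm, Subgroup.map_eq_bot_iff, QuotientGroup.ker_mk']
    rw [this, Subgroup.relIndex_map_map, QuotientGroup.ker_mk', sup_idem, sup_eq_left.mpr hNK']
  obtain ⟨k, hk⟩ := IsPGroup.iff_card.mp hKq
  have hstep : H69.PChain p K' := by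
    apply hNc.step hNK' inferInstance
    rw [hrel, hk]
    by_cases hqp : q = p
    · subst hqp; exact Or.inl ⟨k, rfl⟩
    · right
      exact Nat.Coprime.pow_left k ((Nat.coprime_primes hq hp.out).mpr hqp)
  have h1 := hmax (j := K') ⟨inferInstance, hK'S, hstep⟩ (Subgroup.card_le_of_le hNK')
  have h2 : N = K' := Subgroup.eq_of_le_of_card_ge hNK' h1
  apply hK1
  rw [← hmap, ← h2, Subgroup.map_eq_bot_iff, QuotientGroup.ker_mk']

end Cfsg.Agent.PDZ
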